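import Cfsg.Agent.StdJ4.Gen
import Cfsg.Agent.G2T.GM

/-!
# Standard subgroups of type `G₂(3)`: definitions

`Γ0 ≤ Γ` are subgroups of a finite group `Ω`; `Γ0` is simple and `Γ` is its automorphism group.
`S4` is the model of the Sylow 2-subgroup of `Γ0`.
-/

set_option autoImplicit false

namespace Cfsg.Lib.StdG

open Subgroup Cfsg.Lib.Gold Cfsg.Lib.Trans Cfsg.Lib.StdSz
open Cfsg.Lib.G2T (GM)
open scoped commutatorElement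

/-- the model `⟨a, b, s, γ⟩` of order 64; `⟨i, k, e, f⟩ = a ^ i * b ^ k * s ^ e * γ ^ f` -/
abbrev S4 : Type := GM (ZMod 4)

/-- `a` -/
def a0 : S4 := ⟨1, 0, false, false⟩
/-- `b` -/
def b0 : S4 := ⟨0, 1, false, false⟩
/-- `s` -/
def s0 : S4 := ⟨0, 0, true, false⟩
/-- `γ` -/
def c0 : S4 := ⟨0, 0, false, true⟩
/-- the central involution `a² b²` -/
def z0 : S4 := ⟨2, 2, false, false⟩
/-- `a²` -/
def x0 : S4 := ⟨2, 0, false, false⟩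
/-- `b²` -/
def x1 : S4 := ⟨0, 2, false, false⟩
/-- `a b⁻¹` -/
def i1 : S4 := ⟨1, 3, false, false⟩
/-- `a b` -/
def i2 : S4 := ⟨1, 1, false, false⟩
/-- `a² s` -/
def j1 : S4 := ⟨2, 0, true, false⟩
/-- `b² s γ` -/
def j2 : S4 := ⟨0, 2, true, true⟩

/-- the homocyclic subgroup `⟨a, b⟩` -/
def U0 : Subgroup S4 where
  carrier := {x | x.e = false ∧ x.f = false}
  mul_mem' := by
    have : ∀ x y : S4, x.e = false ∧ x.f = false → y.e = false ∧ y.f = false →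
      (x * y).e = false ∧ (x * y).f = false := by decide +kernel
    exact fun {_ _} h1 h2 => this _ _ h1 h2
  one_mem' := ⟨rfl, rfl⟩
  inv_mem' h := h

/-- `⟨a, b, γ⟩`, the centraliser of `F0` -/
def D0 : Subgroup S4 where
  carrier := {x | x.e = false}
  mul_mem' := by
    have : ∀ x y : S4, x.e = false → y.e = false → (x * y).e = false := by decide +kernel
    exact fun {_ _} h1 h2 => this _ _ h1 h2
  one_mem' := rfl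
  inv_mem' h := h

/-- the four-group `⟨a², b²⟩` -/
def F0 : Subgroup S4 where
  carrier := {x | x.e = false ∧ x.f = false ∧ x.i + x.i = 0 ∧ x.k + x.k = 0}
  mul_mem' := by
    have : ∀ x y : S4, x.e = false ∧ x.f = false ∧ x.i + x.i = 0 ∧ x.k + x.k = 0 →
      y.e = false ∧ y.f = false ∧ y.i + y.i = 0 ∧ y.k + y.k = 0 → (x * y).e = false ∧
      (x * y).f = false ∧ (x * y).i + (x * y).i = 0 ∧ (x * y).k + (x * y).k = 0 := by decide +kernel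
    exact fun {_ _} h1 h2 => this _ _ h1 h2
  one_mem' := ⟨rfl, rfl, rfl, rfl⟩
  inv_mem' := by
    have : ∀ x : S4, x.e = false ∧ x.f = false ∧ x.i + x.i = 0 ∧ x.k + x.k = 0 → x⁻¹.e = false ∧
      x⁻¹.f = false ∧ x⁻¹.i + x⁻¹.i = 0 ∧ x⁻¹.k + x⁻¹.k = 0 := by decide +kernel
    exact fun {_} h => this _ h

/-- the elementary group `⟨a², b², γ⟩` of order eight -/
def V0 : Subgroup S4 where
  carrier := {x | x.e = false ∧ x.i + x.i = 0 ∧ x.k + x.k = 0}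
  mul_mem' := by
    have : ∀ x y : S4, x.e = false ∧ x.i + x.i = 0 ∧ x.k + x.k = 0 →
      y.e = false ∧ y.i + y.i = 0 ∧ y.k + y.k = 0 → (x * y).e = false ∧
      (x * y).i + (x * y).i = 0 ∧ (x * y).k + (x * y).k = 0 := by decide +kernel
    exact fun {_ _} h1 h2 => this _ _ h1 h2
  one_mem' := ⟨rfl, rfl, rfl⟩
  inv_mem' := by
    have : ∀ x : S4, x.e = false ∧ x.i + x.i = 0 ∧ x.k + x.k = 0 → x⁻¹.e = false ∧
      x⁻¹.i + x⁻¹.i = 0 ∧ x⁻¹.k + x⁻¹.k = 0 := by decide +kernel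
    exact fun {_} h => this _ h

/-- the extraspecial group `⟨i1, j1⟩ ∘ ⟨i2, j2⟩` of order 32 -/
def B0 : Subgroup S4 where
  carrier := {x | x.i + x.k + (x.i + x.k) = 0}
  mul_mem' := by
    have : ∀ x y : S4, x.i + x.k + (x.i + x.k) = 0 → y.i + y.k + (y.i + y.k) = 0 →
      (x * y).i + (x * y).k + ((x * y).i + (x * y).k) = 0 := by decide +kernel
    exact fun {_ _} h1 h2 => this _ _ h1 h2
  one_mem' := rfl
  inv_mem' := by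
    have : ∀ x : S4, x.i + x.k + (x.i + x.k) = 0 → x⁻¹.i + x⁻¹.k + (x⁻¹.i + x⁻¹.k) = 0 := by
      decide +kernel
    exact fun {_} h => this _ h

instance : DecidablePred (· ∈ U0) := fun x => inferInstanceAs (Decidable (x.e = false ∧ x.f = false))
instance : DecidablePred (· ∈ D0) := fun x => inferInstanceAs (Decidable (x.e = false))
instance : DecidablePred (· ∈ F0) := fun x =>
  inferInstanceAs (Decidable (x.e = false ∧ x.f = false ∧ x.i + x.i = 0 ∧ x.k + x.k = 0))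
instance : DecidablePred (· ∈ V0) := fun x =>
  inferInstanceAs (Decidable (x.e = false ∧ x.i + x.i = 0 ∧ x.k + x.k = 0))
instance : DecidablePred (· ∈ B0) := fun x => inferInstanceAs (Decidable (x.i + x.k + (x.i + x.k) = 0))

/-- the action of `r` on `D0`: `a ↦ b ↦ (a b)⁻¹`, `γ ↦ γ` -/
def ρr (x : S4) : S4 := ⟨-x.k, x.i - x.k, x.e, x.f⟩

/-- the action of the outer involution: `a ↦ a z`, `b ↦ b a²`, `s ↦ s γ`, `γ ↦ γ` -/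
def ρσ (x : S4) : S4 := ⟨3 * x.i + 2 * x.k, 2 * x.i + x.k, x.e, xor x.f x.e⟩

/-- a map given by a table -/
def tb (t : ℕ) (x : S4) : S4 :=
  let n := t >>> (6 * (x.i.val + 4 * x.k.val + cond x.e 16 0 + cond x.f 32 0))
  ⟨(n % 4 : ℕ), (n / 4 % 4 : ℕ), n / 16 % 2 == 1, n / 32 % 2 == 1⟩

/-- the action of `d` on `B0`: `i1 ↦ j1 ↦ i1 j1`, fixing `i2, j2` -/
def δ1 : S4 → S4 := tb
  0xa80f40025038dc080003202fa00d40027030fc088003a02d3406800080154001c001f0023c048000a01d600140017000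

/-- the action of `e` on `B0`: `i2 ↦ j2 ↦ i2 j2`, fixing `i1, j1` -/
def δ2 : S4 → S4 := tb
  0xc0014000203d3c0e8003700874088002f01aa005c00100257c0a8002701880054001202dc8034000a03f1c0e00035000

/-- the action of `f` on `V0`: `z ↦ a² ↦ γ z ↦ b² ↦ γ b² ↦ γ a² ↦ γ ↦ z` -/
def δf : S4 → S4 := tb 0x802200000002000a00000000000000000000000000000000202800000002a000

variable {G Ω H : Type*} [Group G] [Group Ω] [Group H]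

/-- basic facts on the model -/
structure Base (Γ Γ0 T : Subgroup Ω) (z : Ω) : Prop where
  le : Γ0 ≤ Γ
  idx : ∀ x ∈ Γ, ∀ y ∈ Γ, x ∉ Γ0 → y ∉ Γ0 → x * y ∈ Γ0
  simple : IsSimpleGroup Γ0
  aut : ∀ φ : MulAut Γ0, ∃ g ∈ Γ, ∀ x : Γ0, (φ x : Ω) = g * x * g⁻¹
  cls : ∀ a ∈ Γ0, a * a = 1 → a ≠ 1 → ∃ g ∈ Γ0, g * z * g⁻¹ = a
  T0 : T ≤ Γ0
  cardT : Nat.card T = 64
  syl : ∀ Q ≤ Γ0, IsPGroup 2 Q → Nat.card Q ≤ 64
  zT : z ∈ T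
  z2 : z * z = 1
  z1 : z ≠ 1
  zc : z ∈ Cs T
  centT : Γ ⊓ Cs T ≤ zpowers z
  genT : T ≤ closure {a | a ∈ T ∧ a * a = 1}
  zder : z ∈ ⁅T, T⁆

/-- facts on outer involutions -/
structure Out (Γ Γ0 : Subgroup Ω) : Prop where
  inv : ∀ σ ∈ Γ, σ ∉ Γ0 → ∃ γ ∈ Γ0, σ * γ * (σ * γ) = 1
  low : ∀ σ ∈ Γ, σ ∉ Γ0 → σ * σ = 1 → ∃ Q ≤ Γ0 ⊓ C1 σ, Nat.card Q = 8 ∧ ∀ a ∈ Q, a * a = 1
  up : ∀ σ ∈ Γ, σ ∉ Γ0 → σ * σ = 1 → ∀ Q ≤ Γ ⊓ C1 σ, IsPGroup 2 Q → Nat.card Q ≤ 16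
  ind : ∀ Q ≤ Γ, (∀ a ∈ Q, a * a = 1) → Nat.card Q < 64

/-- `A` is a perfect central extension of `Γ0` by a group of odd order; `ρ` is the action of its
normaliser -/
structure Mdl (Γ Γ0 : Subgroup Ω) (A : Subgroup G) (ρ : G → Ω) : Prop where
  mul : ∀ x ∈ Ns A, ∀ y ∈ Ns A, ρ (x * y) = ρ x * ρ y
  ker : ∀ x ∈ Ns A, ρ x = 1 ↔ x ∈ Cs A
  memΓ : ∀ x ∈ Ns A, ρ x ∈ Γ
  mem : ∀ a ∈ A, ρ a ∈ Γ0
  surj : ∀ γ ∈ Γ0, ∃ a ∈ A, ρ a = γ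
  perf : A ≤ ⁅A, A⁆
  odd : Odd (Nat.card ↥(A ⊓ Cs A))

/-- the hypothesis of the theorem -/
structure Hy (A : Subgroup G) (t : G) : Prop where
  tt : t * t = 1
  t1 : t ≠ 1
  tA : t ∈ Cs A
  cN : C1 t ≤ Ns A
  cyc : ∀ P ≤ Cs A, IsPGroup 2 P → IsCyclic P

/-- the configuration after the reduction: `C_{C(A)}(t) = ⟨t⟩ × O` -/
structure St (A O : Subgroup G) (t : G) : Prop where
  tt : t * t = 1
  t1 : t ≠ 1
  tA : t ∈ Cs A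
  cN : C1 t ≤ Ns A
  Ole : O ≤ Cs A ⊓ C1 t
  Oodd : Odd (Nat.card O)
  dec : ∀ c ∈ Cs A ⊓ C1 t, c ∈ O ∨ ∃ o ∈ O, c = t * o
  nc : ∀ a ∈ A, ¬ IsConj t a
  fus : ∃ a ∈ A, a ≠ 1 ∧ IsConj t (t * a)

/-- `A` is the diagonal of `B × B^t` -/
structure Dbl (A O B : Subgroup G) (t : G) : Prop where
  comm : B ≤ Cs (cj t B)
  diag : ∀ x ∈ B, x * (t * x * t⁻¹) ∈ A
  onto : ∀ a ∈ A, ∃ x ∈ B, a = x * (t * x * t⁻¹)
  cO : B ≤ Cs O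
  uniq : ∀ y, ∀ a ∈ A, a ≠ 1 → y * y = 1 → y * t * y = t * a → y ∈ Cs (A ⊓ C1 a) →
    y ∈ B ∨ y ∈ cj t B

/-- the family of involutions `v a` -/
structure Fam (A O : Subgroup G) (t : G) (v : G → G) : Prop where
  one : v 1 = 1
  sq : ∀ a ∈ A, a * a = 1 → v a * v a = 1
  vt : ∀ a ∈ A, a * a = 1 → v a * t * v a = t * a
  cO : ∀ a ∈ A, a * a = 1 → v a ∈ Cs O
  cA : ∀ a ∈ A, a * a = 1 → v a ∈ Cs (A ⊓ C1 a)
  eqv : ∀ a ∈ A, a * a = 1 → ∀ g ∈ A, v (g * a * g⁻¹) = g * v a * g⁻¹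

/-- the named elements -/
structure El (G : Type*) [Group G] where
  /-- the Sylow 2-subgroup -/
  φ : S4 →* G
  /-- order three, on `D0` -/
  r : G
  /-- order three, on the first quaternion group -/
  d : G
  /-- order three, on the second quaternion group -/
  e : G
  /-- order seven, on `V0` -/
  f : G
  /-- the outer element, or `1` -/
  σ : G

namespace El

variable (E : El G)

/-- the central involution -/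
abbrev z : G := E.φ z0
/-- the image of `U0` -/
abbrev U : Subgroup G := U0.map E.φ
/-- the image of `B0` -/
abbrev B : Subgroup G := B0.map E.φ
/-- `SL₂(3) ∘ SL₂(3)` -/
abbrev DD : Subgroup G := E.B ⊔ closure {E.d, E.e}
/-- conjugation by `r` -/
abbrev cr (y : G) : G := E.r * y * E.r⁻¹

end El

/-- facts inside the simple group -/
structure Com (A : Subgroup G) (E : El G) : Prop where
  inj : Function.Injective E.φ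
  φA : ∀ x, E.φ x ∈ A
  rA : E.r ∈ A
  dA : E.d ∈ A
  eA : E.e ∈ A
  fA : E.f ∈ A
  r3 : E.r ^ 3 = 1
  d3 : E.d ^ 3 = 1
  e3 : E.e ^ 3 = 1
  f7 : E.f ^ 7 = 1
  rD : ∀ x ∈ D0, E.r * E.φ x * E.r⁻¹ = E.φ (ρr x)
  sr : E.φ s0 * E.r * E.φ s0 = E.r⁻¹
  dB : ∀ x ∈ B0, E.d * E.φ x * E.d⁻¹ = E.φ (δ1 x)
  eB : ∀ x ∈ B0, E.e * E.φ x * E.e⁻¹ = E.φ (δ2 x)
  fV : ∀ x ∈ V0, E.f * E.φ x * E.f⁻¹ = E.φ (δf x)
  cls : ∀ x ∈ A, x * x = 1 → x ≠ 1 → ∃ g ∈ A, g * E.z * g⁻¹ = x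
  cz : A ⊓ C1 E.z ≤ closure {E.φ a0, E.d, E.e}
  iz : ∀ x ∈ A ⊓ C1 E.z, x * x = 1 → x ∈ E.B ∨ ∃ g ∈ A ⊓ C1 E.z, g * E.φ (a0 * c0) * g⁻¹ = x
  gD : E.DD ≤ closure {x | x ∈ E.DD ∧ Odd (orderOf x)}
  tD : ∀ x ∈ E.DD, (∃ k, x ^ 2 ^ k = 1) → x ∈ E.B
  o4 : ∀ w ∈ A, w * w = E.z → ∀ p ∈ A, ∀ q ∈ A, p * p = 1 → q * q = 1 → Commute p w → Commute q w →
    Commute p q → p = 1 ∨ p = E.z ∨ q = 1 ∨ q = E.z ∨ p * q = 1 ∨ p * q = E.z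
  syl : ∀ Q ≤ A, IsPGroup 2 Q → Nat.card Q ≤ 64
  c13 : 13 ∣ Nat.card A

/-- `x` fixes `a²`, `γ`, `s` modulo `z` -/
def Fx (E : El G) (x : G) : Prop := Commute x E.z ∧ ∀ y, y = x0 ∨ y = c0 ∨ y = s0 →
  x * E.φ y * x⁻¹ = E.φ y ∨ x * E.φ y * x⁻¹ = E.φ y * E.z

/-- the pairs of involutions for which the calculus gives the commutation -/
inductive RR (Γ0 : Subgroup Ω) (φ : S4 →* Ω) : Ω → Ω → Prop
  | comm {a b : Ω} : Commute a b → RR Γ0 φ a b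
  | b1 : RR Γ0 φ (φ x0) (φ s0)
  | b2 : RR Γ0 φ (φ c0) (φ (a0 * c0))
  | conj {a b g : Ω} : g ∈ Γ0 → RR Γ0 φ a b → RR Γ0 φ (g * a * g⁻¹) (g * b * g⁻¹)
  | symm {a b : Ω} : RR Γ0 φ a b → RR Γ0 φ b a
  | step {a b c : Ω} : b ∈ Γ0 → b * b = 1 → c ∈ Γ0 → c * c = 1 → RR Γ0 φ a b → RR Γ0 φ a c →
      RR Γ0 φ b c → RR Γ0 φ a (c * b * c)

/-- all facts on the model -/
structure Mod (Γ Γ0 : Subgroup Ω) (E : El Ω) : Prop extends Com Γ0 E where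
  base : Base Γ Γ0 E.φ.range E.z
  out : Out Γ Γ0
  σΓ : E.σ ∈ Γ
  σ0 : E.σ ∉ Γ0
  σσ : E.σ * E.σ = 1
  σr : Commute E.σ E.r
  σf : Commute E.σ E.f
  σS : ∀ x, E.σ * E.φ x * E.σ⁻¹ = E.φ (ρσ x)
  oi : ∀ l ∈ Γ0, l * E.σ * (l * E.σ) = 1 → ∃ g ∈ Γ0, g * E.σ * g⁻¹ = l * E.σ
  cF : ∀ x ∈ Γ, Commute x (E.φ x0) → Commute x (E.φ x1) → ∃ y ∈ D0, x = E.φ y ∨ x = E.φ y * E.σ
  cB : ∀ x ∈ Γ, Fx E x → x ∈ E.B
  nD : ∀ x ∈ Γ ⊓ C1 E.z, Odd (orderOf x) → x ∈ E.DD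
  solv : Group.IsSolvable ↥(Γ ⊓ C1 E.z)
  gen : ∃ I : Set Ω, (∀ a ∈ I, a ∈ Γ0 ∧ a * a = 1 ∧ a ≠ 1) ∧ Γ0 ≤ closure I ∧
    ∀ a ∈ I, ∀ b ∈ I, RR Γ0 E.φ a b

/-- the clean configuration: `C(t) = ⟨t⟩ A ⟨σ⟩` -/
structure Cl (A : Subgroup G) (E : El G) (t : G) : Prop extends Com A E where
  tt : t * t = 1
  tA : t ∈ Cs A
  nc : ∀ x ∈ A, ¬ IsConj t x
  fz : ∃ y, Commute y E.z ∧ y * t * y⁻¹ = t * E.z
  σt : Commute E.σ t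
  σN : E.σ ∈ Ns A
  σσ : E.σ * E.σ = 1 ∨ E.σ * E.σ = t
  σr : Commute E.σ E.r
  σf : Commute E.σ E.f
  σS : E.σ = 1 ∨ ∀ x, E.σ * E.φ x * E.σ⁻¹ = E.φ (ρσ x)
  Ct : ∀ x ∈ C1 t, ∃ l ∈ A, x = l ∨ x = l * t ∨ x = l * E.σ ∨ x = l * E.σ * t
  oi : E.σ ≠ 1 → ∀ l ∈ A, l * E.σ * (l * E.σ) = 1 → ∃ g ∈ A, g * E.σ * g⁻¹ = l * E.σ
  σA : E.σ ≠ 1 → ∀ l ∈ A, E.σ ≠ l ∧ E.σ ≠ l * t
  cF : ∀ x ∈ C1 t, Commute x (E.φ x0) → Commute x (E.φ x1) → ∃ y ∈ D0,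
    x = E.φ y ∨ x = E.φ y * t ∨ x = E.φ y * E.σ ∨ x = E.φ y * E.σ * t
  cB : ∀ x ∈ C1 t, Fx E x → x ∈ E.B ∨ x * t ∈ E.B
  nD : ∀ x ∈ C1 t ⊓ C1 E.z, Odd (orderOf x) → x ∈ E.DD

/-- `p` is the projection of the normaliser of `O` onto `H`, with kernel `O` -/
structure Pj (O : Subgroup G) (p : G → H) : Prop where
  mul : ∀ x ∈ Ns O, ∀ y ∈ Ns O, p (x * y) = p x * p y
  ker : ∀ x ∈ Ns O, p x = 1 ↔ x ∈ O
  surj : ∀ y, ∃ x ∈ Ns O, p x = y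

namespace Pj

variable {O : Subgroup G} {p : G → H} (j : Pj O p)

/-- `p` as a homomorphism -/
def hom : Ns O →* H := MonoidHom.mk' (fun x => p x) fun x y => j.mul x x.2 y y.2

/-- the image of a subgroup -/
def img (R : Subgroup G) : Subgroup H := (R.subgroupOf (Ns O)).map j.hom

theorem mem_img {R : Subgroup G} {y : H} : y ∈ j.img R ↔ ∃ x ∈ R, x ∈ Ns O ∧ p x = y :=
  ⟨fun ⟨x, hx, e⟩ => ⟨x, hx, x.2, e⟩, fun ⟨x, hx, hn, e⟩ => ⟨⟨x, hn⟩, hx, e⟩⟩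

end Pj

/-- the element of the climb; `μ` says whether it acts on `U`, and `y γ y⁻¹ = ε γ` -/
structure Yy (A : Subgroup G) (E : El G) (t y : G) (μ : Bool) (ε : S4) : Prop where
  yF : ∀ x ∈ F0, Commute y (E.φ x)
  yt : y * t * y⁻¹ = t * E.z
  tr : y * E.cr y * E.cr (E.cr y) = 1
  nrm : ∀ N : Subgroup G, N.Normal → A ≤ N → y ∈ N
  ya : y * E.φ a0 * y⁻¹ = E.φ (cond μ (a0 * x1) a0)
  yb : y * E.φ b0 * y⁻¹ = E.φ (cond μ (b0 * x0) b0)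
  εU : ε ∈ U0 ⊓ B0
  yc : y * E.φ c0 * y⁻¹ = E.φ (ε * c0)
  yy : y * y ∈ E.U
  ys : E.φ s0 * y * E.φ s0 * y⁻¹ ∈ E.U
  yσ : E.σ * y * E.σ⁻¹ * y⁻¹ ∈ E.U

/-- an involution centralising `B` and swapping `t` and `t z` -/
structure Vv (E : El G) (t v : G) : Prop where
  vv : v * v = 1
  vt : v * t * v = t * E.z
  vB : v ∈ Cs E.B

/-- the relations of the `4³` configuration; `p = r v r⁻¹` -/
structure Gm (E : El G) (t v : G) : Prop extends Vv E t v where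
  va : v * E.φ a0 * v = E.φ (a0 * z0)
  vp : v * E.cr v * v = E.cr v * E.φ x1
  tr : v * E.cr v * E.cr (E.cr v) = E.φ (c0 * x0) * t

namespace El

variable (E : El G) (t y : G)

/-- the group `U ⟨y, y^r⟩` of order 64 -/
abbrev U3 : Subgroup G := E.U ⊔ closure {y, E.cr y}
/-- the group `U3 S` of order 256 -/
abbrev S1 : Subgroup G := E.φ.range ⊔ closure {y, E.cr y}
/-- the group `S1 ⟨t, σ⟩` -/
abbrev PP : Subgroup G := E.S1 y ⊔ closure {t, E.σ}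

end El

/-- the structure of `U3` when `ε ∉ F0` -/
structure Tw (E : El G) (t y : G) (μ : Bool) : Prop where
  nf : ∀ x ∈ E.U3 y, ∃ u ∈ U0, x = E.φ u ∨ x = E.φ u * y ∨ x = E.φ u * E.cr y ∨
    x = E.φ u * (y * E.cr y)
  nS : E.φ.range ≤ Ns (E.U3 y)
  nr : E.r ∈ Ns (E.U3 y)
  nt : t ∈ Ns (E.U3 y)
  nσ : E.σ ∈ Ns (E.U3 y)
  cs : (μ = true ∧ E.σ = 1 ∧ ∃ u ∈ F0, y * y = E.φ u) ∨ (μ = false ∧ (E.σ = 1 ∨ E.σ * E.σ = t) ∧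
    Commute y (E.cr y) ∧ (∃ u ∈ F0, y * y = E.φ (i2 * u)) ∧
    (E.φ c0 * y * E.φ c0 = y⁻¹ ∨ E.φ c0 * y * E.φ c0 = y ^ 3))

/-- the commutation wanted for a pair of involutions -/
abbrev Rv (v : G → G) (a b : G) : Prop := Commute (a * v a) (v b)

/-- the relations of the `2⁶ SL₃(4)` configuration -/
structure Ph (E : El G) (v : G → G) : Prop where
  mul : ∀ x ∈ V0, ∀ y ∈ V0, v (E.φ x) * v (E.φ y) = v (E.φ (x * y))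
  sx : v (E.φ s0) * E.φ x0 * v (E.φ s0) = E.φ x0 * v E.z
  sv : v (E.φ s0) * v (E.φ x0) * v (E.φ s0) = v (E.φ x0) * E.z * v E.z
  sz : Commute (v (E.φ s0)) (v E.z)
  sc : Commute (v (E.φ s0)) (v (E.φ c0))
  sg : v (E.φ s0) * v (E.φ (s0 * c0)) = v (E.φ c0) ∨ v (E.φ s0) * v (E.φ (s0 * c0)) = v (E.φ c0) * E.z

/-- `(f v_s) ^ 5` acts as a scalar of order three -/
def Th (E : El G) (v : G → G) : Prop := ∀ x ∈ V0,
  (E.f * v (E.φ s0)) ^ 5 * E.φ x * ((E.f * v (E.φ s0)) ^ 5)⁻¹ = v (E.φ x) ∧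
  (E.f * v (E.φ s0)) ^ 5 * v (E.φ x) * ((E.f * v (E.φ s0)) ^ 5)⁻¹ = E.φ x * v (E.φ x)

/-- the data for the transfer argument -/
structure Two (A P S : Subgroup G) (t : G) : Prop where
  le : S ≤ P
  tP : t ∈ P
  tS : t ∉ S
  two : IsPGroup 2 P
  idx : ∀ x ∈ P, x ∈ S ∨ x * t ∈ S ∨ x * x * t ∈ S
  comm : ∀ x ∈ P, ∀ y ∈ P, ⁅x, y⁆ ∈ S
  syl : ∀ Q ≤ C1 t, IsPGroup 2 Q → Nat.card Q ≤ Nat.card ↥(P ⊓ C1 t)
  chr : ∀ θ : P ≃* P, (θ ⟨t, tP⟩ : G) ∈ A ∨ ∃ u ∈ P, (θ ⟨t, tP⟩ : G) = u * t * u⁻¹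
  inv : ∀ x ∈ S, x * x = 1 → (∃ g, g * x * g⁻¹ ∈ A) ∨ ((∀ c ∈ C1 t, c ∈ A ∨ c * t ∈ A) ∧
    ∃ x' ∈ S, Commute x x' ∧ IsConj x x' ∧ IsConj x (x * x'))
  nrm : ∀ N : Subgroup G, N.Normal → A ≤ N → S ≤ N

end Cfsg.Lib.StdG
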