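import Cfsg.Agent.StdG.Basic

/-!
# Standard subgroups with one class of involutions: the diagonal map `x ↦ x · x^t`
-/

set_option autoImplicit false
set_option linter.unusedSectionVars false

namespace Cfsg.Lib.StdG

open Subgroup Cfsg.Lib.Gold Cfsg.Lib.Trans Cfsg.Lib.StdSz
open scoped commutatorElement

variable {G Ω : Type*} [Group G] [Group Ω] {Γ Γ0 T : Subgroup Ω} {z : Ω}
  {A O B : Subgroup G} {ρ : G → Ω} {t : G}

/-- the diagonal map -/
def dg (t x : G) : G := x * (t * x * t⁻¹)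

theorem dg_def (t x : G) : dg t x = x * (t * x * t⁻¹) := rfl

/-- `B` commutes with its conjugate under the involution `t` -/
structure Sw (B : Subgroup G) (t : G) : Prop where
  tt : t * t = 1
  comm : B ≤ Cs (cj t B)

namespace Sw

variable (w : Sw B t)
include w

theorem commute {x y : G} (hx : x ∈ B) (hy : y ∈ B) : Commute x (t * y * t⁻¹) :=
  mem_Cs.1 (w.comm hx) _ (conj_mem_cj.2 hy)

theorem mul {x y : G} (hx : x ∈ B) (hy : y ∈ B) : dg t (x * y) = dg t x * dg t y := by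
  have e := (w.commute hy hx).eq
  calc dg t (x * y) = x * (y * (t * x * t⁻¹)) * (t * y * t⁻¹) := by rw [dg_def]; group
    _ = dg t x * dg t y := by rw [e, dg_def, dg_def]; group

/-- the diagonal map as a homomorphism -/
def hom : B →* G := MonoidHom.mk' (fun x => dg t x) fun x y => w.mul x.2 y.2

theorem one : dg t (1 : G) = 1 := by simp [dg_def]

theorem inv {x : G} (hx : x ∈ B) : dg t x⁻¹ = (dg t x)⁻¹ :=
  w.hom.map_inv ⟨x, hx⟩

theorem conjm {x y : G} (hx : x ∈ B) (hy : y ∈ B) :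
    dg t (x * y * x⁻¹) = dg t x * dg t y * (dg t x)⁻¹ := by
  rw [w.mul (B.mul_mem hx hy) (B.inv_mem hx), w.mul hx hy, w.inv hx]

theorem cmm {x y : G} (hx : x ∈ B) (hy : y ∈ B) : dg t ⁅x, y⁆ = ⁅dg t x, dg t y⁆ :=
  map_commutatorElement w.hom ⟨x, hx⟩ ⟨y, hy⟩

theorem sq {x : G} (hx : x ∈ B) (h2 : x * x = 1) : dg t x * dg t x = 1 := by
  rw [← w.mul hx hx, h2, w.one]

theorem memC {x : G} (hx : x ∈ B) : dg t x ∈ C1 t := by
  have e := (w.commute hx hx).eq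
  have ht := StdJ4.inv_of_sq w.tt
  rw [mem_C1]
  show dg t x * t = t * dg t x
  calc dg t x * t = x * (t * x * t⁻¹) * t := rfl
    _ = t * x * t⁻¹ * x * t := by rw [e]
    _ = t * (x * (t * x * t⁻¹)) := by rw [ht]; group
    _ = t * dg t x := rfl

theorem act {x y : G} (hx : x ∈ B) (hy : y ∈ B) : dg t x * y * (dg t x)⁻¹ = x * y * x⁻¹ := by
  have e := (w.commute hy hx).eq
  calc dg t x * y * (dg t x)⁻¹ = x * (t * x * t⁻¹ * y) * (t * x * t⁻¹)⁻¹ * x⁻¹ := by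
        rw [dg_def]; group
    _ = x * y * x⁻¹ := by rw [← e]; group

theorem cent {x : G} (hx : x ∈ B) (e : dg t x = 1) : x ∈ Cs B := by
  rw [mem_Cs]
  intro y hy
  have := w.act hx hy
  rw [e] at this
  have h2 : x * y * x⁻¹ = y := by rw [← this]; group
  show x * y = y * x
  calc x * y = x * y * x⁻¹ * x := by group
    _ = y * x := by rw [h2]

theorem memN {x : G} [Finite G] (hx : x ∈ B) : dg t x ∈ Ns B := by
  refine mem_normalizer_of_cj_le (cj_le_iff.2 fun y hy => ?_)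
  rw [w.act hx hy]
  exact B.mul_mem (B.mul_mem hx hy) (B.inv_mem hx)

theorem ytyt {y : G} (hy : y ∈ B) : y * t * y = t * dg t y := by
  have e := (w.commute hy hy).eq
  have ht := StdJ4.inv_of_sq w.tt
  calc y * t * y = t * t * (y * t * y) := by rw [w.tt, one_mul]
    _ = t * (t * y * t⁻¹ * y) := by rw [ht]; group
    _ = t * dg t y := by rw [← e, dg_def]

/-- the preimage of a subgroup -/
def pre (S : Subgroup G) : Subgroup G := (S.comap w.hom).map B.subtype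

theorem mem_pre {S : Subgroup G} {x : G} : x ∈ w.pre S ↔ x ∈ B ∧ dg t x ∈ S := by
  constructor
  · rintro ⟨y, hy, rfl⟩
    exact ⟨y.2, hy⟩
  · rintro ⟨h1, h2⟩
    exact ⟨⟨x, h1⟩, h2, rfl⟩

theorem mem_range {a : G} : a ∈ w.hom.range ↔ ∃ x ∈ B, dg t x = a := by
  constructor
  · rintro ⟨y, rfl⟩
    exact ⟨y, y.2, rfl⟩
  · rintro ⟨x, h1, h2⟩
    exact ⟨⟨x, h1⟩, h2⟩

theorem of_perf (hp : B ≤ ⁅B, B⁆) {S : Subgroup G}
    (h : ∀ x ∈ B, ∀ y ∈ B, ⁅dg t x, dg t y⁆ ∈ S) {x : G} (hx : x ∈ B) : dg t x ∈ S := by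
  have : ⁅B, B⁆ ≤ w.pre S := by
    rw [commutator_le]
    intro a ha b hb
    refine w.mem_pre.2 ⟨?_, ?_⟩
    · rw [commutatorElement_def]
      exact B.mul_mem (B.mul_mem (B.mul_mem ha hb) (B.inv_mem ha)) (B.inv_mem hb)
    · rw [w.cmm ha hb]
      exact h a ha b hb
  exact (w.mem_pre.1 (this (hp hx))).2

end Sw

theorem Base.cmm_mem (b : Base Γ Γ0 T z) {x y : Ω} (hx : x ∈ Γ) (hy : y ∈ Γ) : ⁅x, y⁆ ∈ Γ0 := by
  rw [commutatorElement_def]
  by_cases h1 : y ∈ Γ0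
  · exact Γ0.mul_mem (mem_normalizer_conj (b.le_Ns hx) h1) (Γ0.inv_mem h1)
  by_cases h2 : x ∈ Γ0
  · have := Γ0.mul_mem h2 (mem_normalizer_conj (b.le_Ns hy) (Γ0.inv_mem h2))
    simpa only [mul_assoc] using this
  · have := Γ0.mul_mem (b.idx x hx y hy h2 h1)
      (b.idx _ (Γ.inv_mem hx) _ (Γ.inv_mem hy) (by simpa using h2) (by simpa using h1))
    simpa only [mul_assoc] using this

theorem eq_one_of_odd_two {x : G} (ho : Odd (orderOf x)) {k : ℕ} (h : x ^ 2 ^ k = 1) : x = 1 := by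
  have h1 : orderOf x ∣ 2 ^ k := orderOf_dvd_of_pow_eq_one h
  have h2 : (orderOf x).Coprime (2 ^ k) := (Nat.coprime_two_right.2 ho).pow_right k
  exact orderOf_eq_one_iff.1 (Nat.Coprime.eq_one_of_dvd h2 h1)

theorem eq_one_of_odd_sq {x : G} (ho : Odd (orderOf x)) (h : x * x = 1) : x = 1 :=
  eq_one_of_odd_two ho (k := 1) (by rw [pow_one, pow_two, h])

variable [Finite G]

theorem St.two_elt (s : St A O t) {c : G} (h1 : c ∈ Cs A) (h2 : c ∈ C1 t) {k : ℕ}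
    (h : c ^ 2 ^ k = 1) : c = 1 ∨ c = t := by
  rcases s.dec c ⟨h1, h2⟩ with ho | ⟨o, ho, rfl⟩
  · exact Or.inl (eq_one_of_odd_two (odd_orderOf s.Oodd ho) h)
  · have hc : Commute t o := (mem_C1.1 (s.Ole ho).2).symm
    have h3 : (t * o) ^ 2 ^ (k + 1) = 1 := by rw [pow_succ, pow_mul, h, one_pow]
    rw [hc.mul_pow, pow_succ', pow_mul, pow_two, s.tt, one_pow, one_mul, ← pow_succ'] at h3
    right
    rw [eq_one_of_odd_two (odd_orderOf s.Oodd ho) h3, mul_one]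

theorem Mdl.lift_z (h : Mdl Γ Γ0 A ρ) (b : Base Γ Γ0 T z) :
    ∃ a ∈ A, a * a = 1 ∧ ρ a ≠ 1 := by
  obtain ⟨a, ha, h2, e⟩ := h.lift_inv (b.T0 b.zT) b.z2
  exact ⟨a, ha, h2, e ▸ b.z1⟩

theorem Mdl.gen_inv (h : Mdl Γ Γ0 A ρ) (b : Base Γ Γ0 T z) {S : Subgroup G}
    (hS : ∀ a ∈ A, a * a = 1 → a ∈ S) : A ≤ S := by
  obtain ⟨a, ha, h2, e⟩ := h.lift_z b
  have h1 : A ≤ closure {x | x ∈ A ∧ x * x = 1} := by
    refine h.le_of_normal b (fun g hg => ?_) ha (subset_closure ⟨ha, h2⟩) e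
    refine mem_normalizer_of_cj_le ?_
    rw [cj_closure]
    refine closure_mono ?_
    rintro _ ⟨x, ⟨hx, hx2⟩, rfl⟩
    refine ⟨A.mul_mem (A.mul_mem hg hx) (A.inv_mem hg), ?_⟩
    calc g * x * g⁻¹ * (g * x * g⁻¹) = g * (x * x) * g⁻¹ := by group
      _ = 1 := by rw [hx2]; group
  exact h1.trans ((closure_le _).2 fun x hx => hS x hx.1 hx.2)

end Cfsg.Lib.StdG
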